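import Mathlib

/-!
# A concrete, computable field with sixteen elements
-/

set_option autoImplicit false

namespace Cfsg.Agent.Lib.Helper3

/-- the field with sixteen elements: polynomials over the field with two elements modulo
`x ^ 4 + x + 1`, coded by their bits -/
structure F16 : Type where
  /-- the code -/
  v : Fin 16
  deriving DecidableEq, Fintype

namespace F16

/-- the multiplication table -/
def MT : ℕ := 0xa5783ce1b4692df05ba48679c23d1fe07ae36bf258c149d0843fd16a2e957bc0386d92c74f1ae5b0c6b1285f394ed7a0e7f6c5d4a3b28190192a7f4cd5e6b380bc5243ad618f9e70428ef93517dbac6063c914be8d27fa509d15ae26fb73c8402147ed8b9afc5630df9b5713eca86420fedcba98765432100000000000000000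
/-- the table of inverses -/
def IV : ℕ := 0x834a5c2f67bde910

instance : Add F16 := ⟨fun x y => ⟨Fin.ofNat 16 (x.v.val ^^^ y.v.val)⟩⟩
instance : Mul F16 := ⟨fun x y => ⟨Fin.ofNat 16 (MT >>> (4 * (16 * x.v.val + y.v.val)))⟩⟩
instance : Zero F16 := ⟨⟨0⟩⟩
instance : One F16 := ⟨⟨1⟩⟩
instance : Neg F16 := ⟨id⟩
instance : Inv F16 := ⟨fun x => ⟨Fin.ofNat 16 (IV >>> (4 * x.v.val))⟩⟩

set_option maxRecDepth 100000 in
instance : Field F16 where
  add_assoc := by decide +kernel
  zero_add := by decide +kernel
  add_zero := by decide +kernel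
  add_comm := by decide +kernel
  neg_add_cancel := by decide +kernel
  mul_assoc := by decide +kernel
  one_mul := by decide +kernel
  mul_one := by decide +kernel
  mul_comm := by decide +kernel
  left_distrib := by decide +kernel
  right_distrib := by decide +kernel
  zero_mul := by decide +kernel
  mul_zero := by decide +kernel
  exists_pair_ne := ⟨0, 1, by decide⟩
  mul_inv_cancel := by decide +kernel
  inv_zero := rfl
  nsmul := nsmulRec
  zsmul := zsmulRec
  nnqsmul := _
  qsmul := _

theorem card_eq : Fintype.card F16 = 16 := by decide +kernel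

/-- decoding of a number -/
def dec (n : ℕ) : F16 := ⟨Fin.ofNat 16 n⟩

end F16

end Cfsg.Agent.Lib.Helper3
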