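import Mathlib
import Cfsg.Agent.Lib.Helper3.Graph

/-!
# Double covers and isomorphisms from correspondences
-/

set_option autoImplicit false

namespace Cfsg.Agent.Lib.Helper3

theorem closure_top_of_coe {G : Type*} [Group G] (L : Subgroup G) (T : Set L)
    (h : Subgroup.closure ((↑) '' T : Set G) = L) : Subgroup.closure T = ⊤ := by
  apply Subgroup.map_injective L.subtype_injective
  rw [MonoidHom.map_closure, ← MonoidHom.range_eq_map, Subgroup.range_subtype]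
  exact h

theorem doubleCover_of_graph {G P : Type*} [Group G] [Group P] (S : Subgroup (G × P))
    (hfun : ∀ σ, ((1 : G), σ) ∈ S → σ = 1)
    (v : ℕ → G) (q : ℕ → P) (hS : ∀ x ∈ [1, 2], (v x, q x) ∈ S)
    (H : Subgroup G) [Finite H] (hvH : ∀ x ∈ [1, 2], v x ∈ H)
    (N : ℕ) (hq : Nat.card (lgrp q [1, 2]) = N) (hH : Nat.card H = 2 * N)
    (hs : IsSimpleGroup (lgrp q [1, 2])) (hnc : q 1 * q 2 ≠ q 2 * q 1)
    (z : G) (hz1 : z ≠ 1) (r : List ℕ) (hr : ∀ l ∈ r, l ∈ [1, 2]) (hrv : (r.map v).prod = z)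
    (hrq : (r.map q).prod = 1)
    (m k : ℕ) (hu : (v 2) ^ (2 * m + 1) = 1) (hw : (v 1 * v 2) ^ (2 * k + 1) = 1) :
    Cfsg.IsNonsplitDoubleCover H (lgrp q [1, 2]) := by
  obtain ⟨ρ, hρ, hspec⟩ := hom_of_graph S hfun v q [1, 2] hS
  have hLH : lgrp v [1, 2] ≤ H := lgrp_le v hvH
  have hfinL : Finite (lgrp v [1, 2]) := Finite.of_injective _ (Subgroup.inclusion_injective hLH)
  have hΓS := lgrp_pair_le S v q [1, 2] hS
  have hzΓ : (z, (1 : P)) ∈ lgrp (fun l => (v l, q l)) [1, 2] := by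
    rw [← hrv, ← hrq, ← prod_map_pair]
    exact prod_mem_of_letters _ _ r (fun l hl => mem_lgrp _ (hr l hl))
  have hzL : z ∈ lgrp v [1, 2] := by
    rw [← hrv]
    exact prod_mem_of_letters _ _ r (fun l hl => mem_lgrp _ (hr l hl))
  have hρz : ρ ⟨z, hzL⟩ = 1 := by
    have h1 := hΓS (hspec ⟨z, hzL⟩)
    have h2 := S.mul_mem (S.inv_mem (hΓS hzΓ)) h1
    have h3 : ((1 : G), ((ρ ⟨z, hzL⟩ : lgrp q [1, 2]) : P)) ∈ S := by
      simpa using h2
    exact Subtype.ext (hfun _ h3)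
  have hker2 : 2 ≤ Nat.card ρ.ker := by
    have : Nontrivial ρ.ker := by
      refine ⟨⟨⟨z, hzL⟩, hρz⟩, 1, ?_⟩
      intro h
      apply hz1
      exact congrArg (fun x : ρ.ker => ((x : lgrp v [1, 2]) : G)) h
    exact Finite.one_lt_card
  have hcardL : Nat.card (lgrp v [1, 2]) = N * Nat.card ρ.ker := by
    have h1 := Subgroup.card_eq_card_quotient_mul_card_subgroup ρ.ker
    rw [Nat.card_congr (QuotientGroup.quotientKerEquivOfSurjective ρ hρ).toEquiv, hq] at h1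
    exact h1
  have hLe : lgrp v [1, 2] = H := by
    apply Subgroup.eq_of_le_of_card_ge hLH
    rw [hH, hcardL, mul_comm]
    exact Nat.mul_le_mul_left N hker2
  subst hLe
  have hv1 : v 1 ∈ lgrp v [1, 2] := mem_lgrp v (by simp)
  have hv2 : v 2 ∈ lgrp v [1, 2] := mem_lgrp v (by simp)
  apply nonsplit_of_odd_gens hs _ ρ hρ (by rw [hH, hq]) ⟨v 2, hv2⟩ (⟨v 1, hv1⟩ * ⟨v 2, hv2⟩) m k
    (Subtype.ext hu) (Subtype.ext hw)
  · apply closure_top_of_coe
    apply le_antisymm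
    · rw [Subgroup.closure_le]
      rintro _ ⟨x, _, rfl⟩
      exact x.2
    · apply lgrp_le
      intro x hx
      have h2 : v 2 ∈ Subgroup.closure (((↑) : lgrp v [1, 2] → G) ''
          {⟨v 2, hv2⟩, ⟨v 1, hv1⟩ * ⟨v 2, hv2⟩}) :=
        Subgroup.subset_closure ⟨⟨v 2, hv2⟩, by simp, rfl⟩
      have h12 : v 1 * v 2 ∈ Subgroup.closure (((↑) : lgrp v [1, 2] → G) ''
          {⟨v 2, hv2⟩, ⟨v 1, hv1⟩ * ⟨v 2, hv2⟩}) :=
        Subgroup.subset_closure ⟨⟨v 1, hv1⟩ * ⟨v 2, hv2⟩, by simp, rfl⟩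
      simp only [List.mem_cons, List.mem_nil_iff, or_false] at hx
      rcases hx with rfl | rfl
      · have := Subgroup.mul_mem _ h12 (Subgroup.inv_mem _ h2)
        simpa using this
      · exact h2
  · refine ⟨⟨q 1, mem_lgrp q (by simp)⟩, ⟨q 2, mem_lgrp q (by simp)⟩, ?_⟩
    intro h
    exact hnc (congrArg Subtype.val h)

end Cfsg.Agent.Lib.Helper3
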