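import Mathlib
import Cfsg.Agent.Lib.Helper3.MatChk

/-!
# Fast list based matrix-vector computations
-/

set_option autoImplicit false

namespace Cfsg.Agent.Lib.Helper3

open Matrix Cfsg.Agent.Lib.Helper11

section

variable {K : Type*} [Field K]

/-- dot product of two lists -/
def dotL : List K → List K → K
  | a :: r, b :: v => a * b + dotL r v
  | _, _ => 0

/-- matrix (list of rows) times vector -/
def mvL (rows : List (List K)) (v : List K) : List K := rows.map (fun r => dotL r v)

theorem dotL_nil_left (v : List K) : dotL ([] : List K) v = 0 := by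
  cases v <;> rfl

theorem dotL_nil_right (r : List K) : dotL r ([] : List K) = 0 := by
  cases r <;> rfl

theorem dotL_eq (d : ℕ) : ∀ (r v : List K), v.length ≤ d →
    dotL r v = ∑ k : Fin d, r.getD k 0 * v.getD k 0 := by
  induction d with
  | zero =>
    intro r v hv
    have : v = [] := List.length_eq_zero_iff.1 (by omega)
    subst this
    simp [dotL_nil_right]
  | succ d ih =>
    intro r v hv
    cases r with
    | nil => simp [dotL_nil_left]
    | cons a r' =>
      cases v with
      | nil => simp [dotL_nil_right]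
      | cons b v' =>
        rw [Fin.sum_univ_succ]
        simp only [dotL, Fin.val_zero, List.getD_cons_zero, Fin.val_succ, List.getD_cons_succ]
        rw [ih r' v' (by simpa using hv)]

variable {ι : Type*} [Fintype ι] [DecidableEq ι] {d : ℕ}

/-- the vector of a list -/
def toV (e : ι ≃ Fin d) (l : List K) : ι → K := fun j => l.getD (e j) 0

/-- the matrix of a list of rows -/
def toM (e : ι ≃ Fin d) (rows : List (List K)) : Matrix ι ι K :=
  fun i j => (rows.getD (e i) []).getD (e j) 0

theorem toM_mulVec (e : ι ≃ Fin d) (rows : List (List K)) (v : List K) (hv : v.length ≤ d) :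
    toM e rows *ᵥ toV e v = toV e (mvL rows v) := by
  funext i
  have h1 : (mvL rows v).getD (e i) 0 = dotL (rows.getD (e i) []) v := by
    unfold mvL
    have := List.getD_map (f := fun r => dotL r v) (l := rows) (n := (e i : ℕ)) (d := [])
    simp only [dotL_nil_left] at this
    exact this
  show ∑ j, toM e rows i j * toV e v j = (mvL rows v).getD (e i) 0
  rw [h1, dotL_eq d _ v hv, ← Equiv.sum_comp e]
  rfl

theorem toV_smul (e : ι ≃ Fin d) (c : K) (v : List K) :
    toV e (v.map (fun x => c * x)) = c • toV e v := by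
  funext i
  have := List.getD_map (f := fun x => c * x) (l := v) (n := (e i : ℕ)) (d := (0 : K))
  simp only [mul_zero] at this
  exact this

theorem mvL_length (rows : List (List K)) (v : List K) : (mvL rows v).length = rows.length := by
  simp [mvL]

/-- action of a word of matrices -/
def mvW (Ws : List (List (List K))) (v : List K) : List K := Ws.foldr mvL v

theorem mvW_length (d : ℕ) (Ws : List (List (List K))) (hW : ∀ W ∈ Ws, W.length ≤ d) (v : List K)
    (hv : v.length ≤ d) : (mvW Ws v).length ≤ d := by
  induction Ws with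
  | nil => exact hv
  | cons W t _ =>
    show (mvL W (mvW t v)).length ≤ d
    rw [mvL_length]
    exact hW W (by simp)

theorem prod_toM_mulVec (e : ι ≃ Fin d) (Ws : List (List (List K)))
    (hW : ∀ W ∈ Ws, W.length ≤ d) (v : List K) (hv : v.length ≤ d) :
    (Ws.map (toM e)).prod *ᵥ toV e v = toV e (mvW Ws v) := by
  induction Ws with
  | nil => simp [mvW]
  | cons W t ih =>
    rw [List.map_cons, List.prod_cons, ← Matrix.mulVec_mulVec, ih (fun W' h => hW W' (by simp [h])),
      toM_mulVec e W _ (mvW_length d t (fun W' h => hW W' (by simp [h])) v hv)]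
    rfl

/-- the `j`-th basis vector as a list -/
def basL (d j : ℕ) : List K := (List.range d).map (fun k => if k = j then 1 else 0)

theorem toV_basL (e : ι ≃ Fin d) (j : ι) : toV e (basL (K := K) d (e j)) = Pi.single j 1 := by
  funext i
  unfold toV basL
  have h : ((e i : Fin d) : ℕ) < (List.range d).length := by simp
  rw [List.getD_eq_getElem _ _ (by simpa using h)]
  simp only [List.getElem_map, List.getElem_range]
  by_cases hij : i = j
  · subst hij; simp
  · have : ((e i : Fin d) : ℕ) ≠ (e j : Fin d) := by
      intro h2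
      exact hij (e.injective (Fin.ext h2))
    simp [this, hij]

/-- equality of two products of matrices, tested on the basis -/
theorem prod_toM_eq (e : ι ≃ Fin d) (Ws Ws' : List (List (List K)))
    (hW : ∀ W ∈ Ws, W.length ≤ d) (hW' : ∀ W ∈ Ws', W.length ≤ d)
    (h : ∀ j < d, mvW Ws (basL d j) = mvW Ws' (basL d j)) :
    (Ws.map (toM e)).prod = (Ws'.map (toM e)).prod := by
  ext i j
  have hl : (basL (K := K) d (e j)).length ≤ d := by simp [basL]
  have h1 := prod_toM_mulVec e Ws hW (basL d (e j)) hl
  have h2 := prod_toM_mulVec e Ws' hW' (basL d (e j)) hl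
  rw [h _ (e j).2, ← h2, toV_basL] at h1
  have := congrFun h1 i
  simpa using this

/-- decoding of a point -/
def ptOf (dec : ℕ → K) (PT b d i : ℕ) : List K :=
  (List.range d).map (fun j => dec (tb (tb PT (b * d) i) b j))

theorem ptOf_length (dec : ℕ → K) (PT b d i : ℕ) : (ptOf dec PT b d i).length ≤ d := by
  simp [ptOf]

/-- the check for one generator given as a word of matrices -/
def genChkW (Ws : List (List (List K))) (pt : ℕ → List K) (cs : ℕ → K) (img : ℕ → ℕ)
    (ntl : List (List (ℕ × ℕ))) (l n : ℕ) : Prop :=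
  ∀ i < n, img i < n ∧ cs i ≠ 0 ∧ mvW Ws (pt i) = (pt (img i)).map (fun x => cs i * x) ∧
    Nat.beq (applyWord (ntOf ntl) [l] (Nat.pow 2 (img i))) (Nat.pow 2 i) = true

noncomputable instance [DecidableEq K] (Ws : List (List (List K))) (pt : ℕ → List K) (cs : ℕ → K)
    (img : ℕ → ℕ) (ntl : List (List (ℕ × ℕ))) (l n : ℕ) :
    Decidable (genChkW Ws pt cs img ntl l n) := by
  unfold genChkW
  infer_instance

theorem NetSetup.mem_projGraph_of_chkW {M : Type*} [Group M] {ntl : List (List (ℕ × ℕ))}
    {n k INV nc : ℕ} (S : NetSetup ntl n k INV nc) (T : M →* Matrix ι ι K) (g : M)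
    (e : ι ≃ Fin d) (Ws : List (List (List K))) (hW : ∀ W ∈ Ws, W.length ≤ d)
    (hg : T g = (Ws.map (toM e)).prod) (pt : ℕ → List K) (hpt : ∀ i, (pt i).length ≤ d)
    (cs : ℕ → K) (img : ℕ → ℕ) (l : ℕ) (h : genChkW Ws pt cs img ntl l n) :
    (g, vL ntl n l) ∈ projGraph T (fun i : Fin n => toV e (pt i)) := by
  rw [mem_projGraph]
  intro i
  obtain ⟨h1, h2, h3, h4⟩ := h i i.2
  refine ⟨cs i, h2, ?_⟩
  have := S.img_of_chk l i (img i) i.2 h1 h4
  rw [hg, this, prod_toM_mulVec e Ws hW _ (hpt i), h3, toV_smul]

end

end Cfsg.Agent.Lib.Helper3
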