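import Mathlib
import Cfsg.Agent.Lib.Helper3.MatL
import Cfsg.Agent.Lib.Helper3.Graph2
import Cfsg.Agent.Lib.Helper11.CoxSimple

/-!
# Further tools: inequality of products, even words in commutator subgroups, isomorphisms by order
-/

set_option autoImplicit false

namespace Cfsg.Agent.Lib.Helper3

open Matrix Cfsg.Agent.Lib.Helper11

section

variable {K : Type*} [Field K] {ι : Type*} [Fintype ι] [DecidableEq ι] {d : ℕ}

theorem prod_toM_ne (e : ι ≃ Fin d) (Ws Ws' : List (List (List K)))
    (hW : ∀ W ∈ Ws, W.length ≤ d) (hW' : ∀ W ∈ Ws', W.length ≤ d) (j k : Fin d)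
    (h : (mvW Ws (basL d j)).getD k 0 ≠ (mvW Ws' (basL d j)).getD k 0) :
    (Ws.map (toM e)).prod ≠ (Ws'.map (toM e)).prod := by
  intro heq
  apply h
  have hl : (basL (K := K) d j).length ≤ d := by simp [basL]
  have h1 := prod_toM_mulVec e Ws hW (basL d j) hl
  have h2 := prod_toM_mulVec e Ws' hW' (basL d j) hl
  rw [heq, h2] at h1
  have := congrFun h1 (e.symm k)
  simp only [toV, Equiv.apply_symm_apply] at this
  exact this.symm

/-- preservation of a quadratic form given by a matrix -/
theorem quad_preserved (Q : (ι → K) → K) (S' : Matrix ι ι K) (hQ : ∀ u, Q u = u ⬝ᵥ (S' *ᵥ u))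
    (A : Matrix ι ι K) (hA : Aᵀ * S' * A = S') (u : ι → K) : Q (A *ᵥ u) = Q u := by
  rw [hQ, hQ]
  conv_rhs => rw [← hA]
  rw [← Matrix.mulVec_mulVec, ← Matrix.mulVec_mulVec, Matrix.dotProduct_mulVec u Aᵀ,
    Matrix.vecMul_transpose]

end

/-- even words in pairwise "braided" involutions lie in the commutator subgroup -/
theorem even_word_mem_commutator {O : Type*} [Group O] (r : ℕ → O) (x0 : ℕ)
    (hsq : Abelianization.of (r x0) ^ 2 = 1) (w : List ℕ)
    (hw : ∀ l ∈ w, Abelianization.of (r l) = Abelianization.of (r x0)) (k : ℕ)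
    (hlen : w.length = 2 * k) : (w.map r).prod ∈ commutator O := by
  have h1 : ∀ w : List ℕ, (∀ l ∈ w, Abelianization.of (r l) = Abelianization.of (r x0)) →
      Abelianization.of ((w.map r).prod) = Abelianization.of (r x0) ^ w.length := by
    intro w
    induction w with
    | nil => intro _; simp
    | cons a t ih =>
      intro h
      rw [List.map_cons, List.prod_cons, map_mul, h a (by simp), ih (fun l hl => h l (by simp [hl])),
        List.length_cons, pow_succ']
  have h2 := h1 w hw
  rw [hlen, pow_mul, hsq, one_pow] at h2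
  exact (QuotientGroup.eq_one_iff _).1 h2

/-- isomorphism from a functional correspondence and equality of orders -/
theorem iso_of_graph_card {G P : Type*} [Group G] [Group P] (S : Subgroup (G × P))
    (hfun : ∀ σ, ((1 : G), σ) ∈ S → σ = 1)
    (v : ℕ → G) (q : ℕ → P) (gens : List ℕ) (hS : ∀ x ∈ gens, (v x, q x) ∈ S)
    (H : Subgroup G) [Finite H] (hvH : ∀ x ∈ gens, v x ∈ H)
    (N : ℕ) (hq : Nat.card (lgrp q gens) = N) (hH : Nat.card H = N) :
    lgrp v gens = H ∧ Nonempty (H ≃* lgrp q gens) := by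
  obtain ⟨ρ, hρ, -⟩ := hom_of_graph S hfun v q gens hS
  have hLH : lgrp v gens ≤ H := lgrp_le v hvH
  have hfinL : Finite (lgrp v gens) := Finite.of_injective _ (Subgroup.inclusion_injective hLH)
  have hge : N ≤ Nat.card (lgrp v gens) := by
    rw [← hq]
    exact Nat.card_le_card_of_surjective ρ hρ
  have hLe : lgrp v gens = H := by
    apply Subgroup.eq_of_le_of_card_ge hLH
    rw [hH]; exact hge
  refine ⟨hLe, ?_⟩
  subst hLe
  have hb : Function.Bijective ρ := hρ.bijective_of_nat_card_le (by rw [hH, hq])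
  exact ⟨MulEquiv.ofBijective ρ hb⟩

end Cfsg.Agent.Lib.Helper3
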