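import Mathlib
import Cfsg.Agent.Lib.Helper3.MatL2

/-!
# Images of points from bit masks; two-level tables; range checks
-/

set_option autoImplicit false

namespace Cfsg.Agent.Lib.Helper3

open Matrix Cfsg.Agent.Lib.Helper11

/-- image of a point from the masks (`MS[j]` = set of the points whose image has `j`-th digit one) -/
def imgOf (MS : List ℕ) (p : ℕ) : ℕ := MS.foldr (fun M acc => 2 * acc + (M.testBit p).toNat) 0

theorem imgOf_testBit (MS : List ℕ) (p : ℕ) : ∀ j, (imgOf MS p).testBit j = (MS.getD j 0).testBit p := by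
  induction MS with
  | nil => intro j; simp [imgOf]
  | cons M t ih =>
    intro j
    have e : imgOf (M :: t) p = 2 * imgOf t p + (M.testBit p).toNat := rfl
    rw [e]
    cases j with
    | zero =>
      rw [Nat.testBit_zero, List.getD_cons_zero]
      cases M.testBit p <;> simp [Nat.add_mod]
    | succ j =>
      rw [Nat.testBit_succ, List.getD_cons_succ, ← ih j]
      congr 1
      cases M.testBit p <;> simp <;> omega

/-- the masks are those of the word `w` -/
noncomputable def maskChk (NT : ℕ → List (ℕ × ℕ)) (k : ℕ) (w : List ℕ) (MS : List ℕ) : Bool :=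
  decide (MS.length ≤ k) &&
    (List.range k).all (fun j => Nat.beq (applyWord NT w (tvec j k)) (MS.getD j 0))

theorem wordPerm_eq_imgOf (NT : ℕ → List (ℕ × ℕ)) (k : ℕ)
    (hNT : ∀ l, ∀ st ∈ NT l, stOK (2 ^ (2 ^ k)) st = true) (w : List ℕ) (MS : List ℕ)
    (h : maskChk NT k w MS = true) (p : ℕ) (hp : p < 2 ^ k) : wordPerm NT w p = imgOf MS p := by
  unfold maskChk at h
  rw [Bool.and_eq_true, decide_eq_true_eq, List.all_eq_true] at h
  obtain ⟨hlen, hall⟩ := h
  have hq := wordPerm_lt NT _ hNT w p hp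
  apply Nat.eq_of_testBit_eq
  intro j
  rw [imgOf_testBit]
  by_cases hj : j < k
  · have h1 : applyWord NT w (tvec j k) = MS.getD j 0 :=
      Nat.eq_of_beq_eq_true (hall j (List.mem_range.2 hj))
    have h2 := applyWord_spec _ NT hNT w (tvec j k) p
    rw [h1, tvec_spec] at h2
    change _ = (decide (wordPerm NT w p < 2 ^ k) && _) at h2
    simp only [hq, decide_true, Bool.true_and] at h2
    exact h2.symm
  · have hk : 2 ^ k ≤ 2 ^ j := Nat.pow_le_pow_right (by norm_num) (by omega)
    rw [Nat.testBit_lt_two_pow (lt_of_lt_of_le hq hk), List.getD_eq_default _ _ (by omega)]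
    simp

theorem NetSetup.vL_eq_imgOf {ntl : List (List (ℕ × ℕ))} {n k INV nc : ℕ}
    (S : NetSetup ntl n k INV nc) (hn : n ≤ 2 ^ k) (l : ℕ) (MS : List ℕ)
    (h : maskChk (ntOf ntl) k [l] MS = true) (i : Fin n) :
    ((vL ntl n l i : Fin n) : ℕ) = imgOf MS i := by
  have h1 := vL_prod_apply S.hst [l] i
  simp only [List.map_cons, List.map_nil, List.prod_cons, List.prod_nil, mul_one] at h1
  rw [h1]
  exact wordPerm_eq_imgOf _ k (ntOf_ok ntl _ S.hok) [l] MS h i (lt_of_lt_of_le i.2 hn)

/-- two-level table: blocks of 256 entries of `w` bits -/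
def tb2 (T : List ℕ) (w i : ℕ) : ℕ := tb (T.getD (i / 256) 0) w (i % 256)

section

variable {K : Type*} [Field K] {ι : Type*} [Fintype ι] [DecidableEq ι] {d : ℕ}

/-- decoding of a point from a two-level table -/
def ptOf2 (dec : ℕ → K) (PT : List ℕ) (b d i : ℕ) : List K :=
  (List.range d).map (fun j => dec (tb (tb2 PT (b * d) i) b j))

theorem ptOf2_length (dec : ℕ → K) (PT : List ℕ) (b d i : ℕ) : (ptOf2 dec PT b d i).length ≤ d := by
  simp [ptOf2]

/-- the check for one generator on a range of points -/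
def genChkR (Ws : List (List (List K))) (pt : ℕ → List K) (cs : ℕ → K) (MS : List ℕ)
    (lo m : ℕ) : Prop :=
  ∀ i < m, cs (lo + i) ≠ 0 ∧
    mvW Ws (pt (lo + i)) = (pt (imgOf MS (lo + i))).map (fun x => cs (lo + i) * x)

instance [DecidableEq K] (Ws : List (List (List K))) (pt : ℕ → List K) (cs : ℕ → K)
    (MS : List ℕ) (lo m : ℕ) : Decidable (genChkR Ws pt cs MS lo m) := by
  unfold genChkR
  infer_instance

theorem genChkR_append (Ws : List (List (List K))) (pt : ℕ → List K) (cs : ℕ → K) (MS : List ℕ)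
    (lo m m' : ℕ) (h1 : genChkR Ws pt cs MS lo m) (h2 : genChkR Ws pt cs MS (lo + m) m') :
    genChkR Ws pt cs MS lo (m + m') := by
  intro i hi
  by_cases h : i < m
  · exact h1 i h
  · have := h2 (i - m) (by omega)
    have e : lo + m + (i - m) = lo + i := by omega
    rwa [e] at this

theorem NetSetup.mem_projGraph_of_chkR {M : Type*} [Group M] {ntl : List (List (ℕ × ℕ))}
    {n k INV nc : ℕ} (S : NetSetup ntl n k INV nc) (hn : n ≤ 2 ^ k) (T : M →* Matrix ι ι K) (g : M)
    (e : ι ≃ Fin d) (Ws : List (List (List K))) (hW : ∀ W ∈ Ws, W.length ≤ d)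
    (hg : T g = (Ws.map (toM e)).prod) (pt : ℕ → List K) (hpt : ∀ i, (pt i).length ≤ d)
    (cs : ℕ → K) (l : ℕ) (MS : List ℕ) (hMS : maskChk (ntOf ntl) k [l] MS = true)
    (h : genChkR Ws pt cs MS 0 n) :
    (g, vL ntl n l) ∈ projGraph T (fun i : Fin n => toV e (pt i)) := by
  rw [mem_projGraph]
  intro i
  obtain ⟨h2, h3⟩ := h i i.2
  rw [Nat.zero_add] at h2 h3
  refine ⟨cs i, h2, ?_⟩
  have := S.vL_eq_imgOf hn l MS hMS i
  rw [hg, this, prod_toM_mulVec e Ws hW _ (hpt i), h3, toV_smul]

end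

end Cfsg.Agent.Lib.Helper3
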