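import Mathlib

/-!
# Transport of subgroups along isomorphisms
-/

set_option autoImplicit false

namespace Cfsg.Agent.Lib.Helper3

/-- a subgroup of the target of an isomorphism gives a subgroup of the source -/
theorem exists_subgroup_iso {G P : Type*} [Group G] [Group P] (L K : Subgroup P) (e : G ≃* L)
    (h : K ≤ L) : ∃ H : Subgroup G, Nonempty (H ≃* K) := by
  refine ⟨(K.subgroupOf L).map e.symm.toMonoidHom, ?_⟩
  exact ⟨(MulEquiv.subgroupMap e.symm (K.subgroupOf L)).symm.trans (Subgroup.subgroupOfEquivOfLe h)⟩

end Cfsg.Agent.Lib.Helper3
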