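import Mathlib
import Cfsg.Prelude.Def_SporadicB

set_option autoImplicit false

namespace Cfsg.Agent.Lib.Helper3

open Cfsg

variable {G : Type*} [Group G]

theorem mul_self_of_orderOf {a : G} (h : orderOf a = 2) : a * a = 1 := by
  rw [← pow_two, ← h, pow_orderOf_eq_one]

theorem inv_of_mul_self {a : G} (h : a * a = 1) : a⁻¹ = a := inv_eq_of_mul_eq_one_left h

theorem commute_or_braid {a b : G} (ha : a * a = 1) (hb : b * b = 1)
    (h : (a * b) ^ 2 = 1 ∨ (a * b) ^ 3 = 1) : Commute a b ∨ a * b * a = b * a * b := by
  rcases h with h | h
  · left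
    rw [pow_two] at h
    have h1 := eq_inv_of_mul_eq_one_left h
    rw [mul_inv_rev, inv_of_mul_self ha, inv_of_mul_self hb] at h1
    exact h1
  · right
    have h0 : (a * b * a) * (b * a * b) = 1 := by
      rw [← h, pow_succ, pow_two]
      simp only [mul_assoc]
    have h1 := eq_inv_of_mul_eq_one_left h0
    rw [mul_inv_rev, mul_inv_rev, inv_of_mul_self ha, inv_of_mul_self hb, ← mul_assoc] at h1
    exact h1

theorem tt_sq {E : Set G} (hE : IsThreeTranspositionSet E) {a : G} (ha : a ∈ E) : a * a = 1 :=
  mul_self_of_orderOf (hE.1 a ha)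

theorem tt_cases {E : Set G} (hE : IsThreeTranspositionSet E) {a b : G} (ha : a ∈ E) (hb : b ∈ E) :
    Commute a b ∨ a * b * a = b * a * b :=
  commute_or_braid (tt_sq hE ha) (tt_sq hE hb) (hE.2 a ha b hb)

/-- core of the "product of two" lemma -/
theorem commute_of_commute_mul {a b e : G} (ha : a * a = 1) (hb : b * b = 1) (he : e * e = 1)
    (hab : a ≠ b) (h1 : Commute e a ∨ e * a * e = a * e * a)
    (h2 : Commute e b ∨ e * b * e = b * e * b) (h : Commute e (a * b)) : Commute e a := by
  rcases h1 with h1 | h1
  · exact h1
  have h3 : e * b * e = a * e * b := by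
    have hh : e * (a * b) = a * b * e := h
    calc e * b * e = (a * e * a) * ((a * e * a) * (e * b * e)) := by
          have : (a * e * a) * (a * e * a) = 1 := by
            calc (a * e * a) * (a * e * a) = a * (e * (a * a) * e) * a := by simp only [mul_assoc]
              _ = 1 := by rw [ha, mul_one, he, mul_one, ha]
          rw [← mul_assoc, this, one_mul]
      _ = (a * e * a) * ((e * a * e) * (e * b * e)) := by rw [h1]
      _ = (a * e * a) * (e * (a * b) * e) := by
          congr 1
          calc (e * a * e) * (e * b * e) = e * a * (e * e) * b * e := by simp only [mul_assoc]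
            _ = e * (a * b) * e := by rw [he, mul_one]; simp only [mul_assoc]
      _ = (a * e * a) * (a * b) := by rw [hh, mul_assoc (a * b), he, mul_one]
      _ = a * e * (a * a) * b := by simp only [mul_assoc]
      _ = a * e * b := by rw [ha, mul_one]
  rcases h2 with h2 | h2
  · have h4 : e * b = b * e := h2
    rw [h4, mul_assoc, he, mul_one] at h3
    have h5 : a * e = 1 := by
      have : 1 * b = a * e * b := by rw [one_mul]; exact h3
      exact (mul_right_cancel this).symm
    have h6 : a = e := by
      have := eq_inv_of_mul_eq_one_left h5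
      rwa [inv_of_mul_self he] at this
    rw [h6]
  · rw [h2] at h3
    have h4 : b * (e * b) = a * (e * b) := by simpa only [mul_assoc] using h3
    exact absurd (mul_right_cancel h4).symm hab

theorem two_lemma {a b e : G} (ha : a * a = 1) (hb : b * b = 1) (he : e * e = 1)
    (hab : a ≠ b) (hcomm : Commute a b) (h1 : Commute e a ∨ e * a * e = a * e * a)
    (h2 : Commute e b ∨ e * b * e = b * e * b) :
    Commute e (a * b) ↔ (Commute e a ∧ Commute e b) := by
  constructor
  · intro h
    refine ⟨commute_of_commute_mul ha hb he hab h1 h2 h, ?_⟩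
    apply commute_of_commute_mul hb ha he hab.symm h2 h1
    rw [← hcomm.eq]
    exact h
  · rintro ⟨h3, h4⟩
    exact h3.mul_right h4

/-- `(e u)^4 = 1` in the `A₃` configuration -/
theorem a3_lemma {b c e : G} (hb : b * b = 1) (hc : c * c = 1) (he : e * e = 1)
    (hbc : b * c = c * b) (h2 : e * b * e = b * e * b) (h3 : e * c * e = c * e * c) :
    e * (b * c) * (e * (b * c)) = b * c * e * (b * c * e) := by
  calc e * (b * c) * (e * (b * c)) = e * b * (c * e * c) * b := by
        rw [hbc]
        nth_rewrite 1 [← hbc]
        simp only [mul_assoc]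
    _ = e * b * (e * c * e) * b := by rw [h3]
    _ = (e * b * e) * c * e * b := by simp only [mul_assoc]
    _ = (b * e * b) * c * e * b := by rw [h2]
    _ = b * e * (b * c) * e * b := by simp only [mul_assoc]
    _ = b * e * (c * b) * e * b := by rw [hbc]
    _ = b * e * c * (b * e * b) := by simp only [mul_assoc]
    _ = b * e * c * (e * b * e) := by rw [h2]
    _ = b * (e * c * e) * b * e := by simp only [mul_assoc]
    _ = b * (c * e * c) * b * e := by rw [h3]
    _ = b * c * e * (c * b) * e := by simp only [mul_assoc]
    _ = b * c * e * (b * c) * e := by rw [hbc]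
    _ = b * c * e * (b * c * e) := by simp only [mul_assoc]

theorem three_aux {a b c e : G} (ha : a * a = 1) (hb : b * b = 1) (hc : c * c = 1)
    (he : e * e = 1) (h₁ : Commute a b) (h₂ : Commute a c) (h₃ : Commute b c)
    (k1 : Commute e a ∨ e * a * e = a * e * a) (k2 : e * b * e = b * e * b)
    (k3 : e * c * e = c * e * c) (h : Commute e (a * b * c)) : Commute e a := by
  rcases k1 with k1 | k1
  · exact k1
  obtain ⟨t, ht⟩ : ∃ t, t = a * b * c := ⟨_, rfl⟩
  rw [← ht] at h
  have hte : t * e = e * t := h.eq.symm
  have hta : t * a = a * t := by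
    have : Commute a t := by
      rw [ht]
      exact ((Commute.refl a).mul_right h₁).mul_right h₂
    exact this.eq.symm
  have htt : t * t = 1 := by
    have e1 : a * b = b * a := h₁
    have e2 : a * c = c * a := h₂
    have e3 : b * c = c * b := h₃
    calc t * t = a * b * (c * a) * b * c := by rw [ht]; simp only [mul_assoc]
      _ = a * b * (a * c) * b * c := by rw [e2]
      _ = a * (b * a) * (c * b) * c := by simp only [mul_assoc]
      _ = a * (a * b) * (b * c) * c := by rw [e1, e3]
      _ = (a * a) * (b * b) * (c * c) := by simp only [mul_assoc]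
      _ = 1 := by rw [ha, hb, hc, one_mul, one_mul]
  have hu : b * c = a * t := by
    rw [ht, mul_assoc a b c, ← mul_assoc a a, ha, one_mul]
  have key := a3_lemma hb hc he h₃ k2 k3
  rw [hu] at key
  have L : e * (a * t) * (e * (a * t)) = e * a * e * a := by
    calc e * (a * t) * (e * (a * t)) = e * a * (t * e) * a * t := by simp only [mul_assoc]
      _ = e * a * (e * t) * a * t := by rw [hte]
      _ = e * a * e * (t * a) * t := by simp only [mul_assoc]
      _ = e * a * e * (a * t) * t := by rw [hta]
      _ = e * a * e * a * (t * t) := by simp only [mul_assoc]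
      _ = e * a * e * a := by rw [htt, mul_one]
  have R : a * t * e * (a * t * e) = a * e * a * e := by
    calc a * t * e * (a * t * e) = a * (t * e) * a * (t * e) := by simp only [mul_assoc]
      _ = a * (e * t) * a * (e * t) := by rw [hte]
      _ = a * e * (t * a) * e * t := by simp only [mul_assoc]
      _ = a * e * (a * t) * e * t := by rw [hta]
      _ = a * e * a * (t * e) * t := by simp only [mul_assoc]
      _ = a * e * a * (e * t) * t := by rw [hte]
      _ = a * e * a * e * (t * t) := by simp only [mul_assoc]
      _ = a * e * a * e := by rw [htt, mul_one]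
  rw [L, R] at key
  have e1 : e * a * e * a = a * e := by rw [k1, mul_assoc (a * e), ha, mul_one]
  have e2 : a * e * a * e = e * a := by rw [← k1, mul_assoc (e * a), he, mul_one]
  rw [e1, e2] at key
  exact key.symm

theorem three_lemma {a b c e : G} (ha : a * a = 1) (hb : b * b = 1) (hc : c * c = 1)
    (he : e * e = 1) (hab : a ≠ b) (hac : a ≠ c) (hbc : b ≠ c)
    (h₁ : Commute a b) (h₂ : Commute a c) (h₃ : Commute b c)
    (k1 : Commute e a ∨ e * a * e = a * e * a) (k2 : Commute e b ∨ e * b * e = b * e * b)
    (k3 : Commute e c ∨ e * c * e = c * e * c) :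
    Commute e (a * b * c) ↔ (Commute e a ∧ Commute e b ∧ Commute e c) := by
  constructor
  · intro h
    have hA : Commute e a → (Commute e a ∧ Commute e b ∧ Commute e c) := by
      intro hea
      have h4 : Commute e (b * c) := by
        have : b * c = a * (a * b * c) := by
          rw [mul_assoc a b c, ← mul_assoc a a, ha, one_mul]
        rw [this]
        exact hea.mul_right h
      exact ⟨hea, (two_lemma hb hc he hbc h₃ k2 k3).1 h4⟩
    rcases k2 with k2' | k2'
    · have h4 : Commute e (a * c) := by
        have : a * c = b * (a * b * c) := by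
          rw [h₁.eq, mul_assoc b a c, ← mul_assoc b b, hb, one_mul]
        rw [this]
        exact k2'.mul_right h
      have := (two_lemma ha hc he hac h₂ k1 k3).1 h4
      exact ⟨this.1, k2', this.2⟩
    · rcases k3 with k3' | k3'
      · have h4 : Commute e (a * b) := by
          have : a * b = (a * b * c) * c := by
            rw [mul_assoc (a * b), hc, mul_one]
          rw [this]
          exact h.mul_right k3'
        have := (two_lemma ha hb he hab h₁ k1 (Or.inr k2')).1 h4
        exact ⟨this.1, this.2, k3'⟩
      · exact hA (three_aux ha hb hc he h₁ h₂ h₃ k1 k2' k3' h)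
  · rintro ⟨h3, h4, h5⟩
    exact (h3.mul_right h4).mul_right h5

end Cfsg.Agent.Lib.Helper3
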